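import Cfsg.Agent.LocalLemmas.Basic
import Cfsg.Agent.Transfer.Residual
import Cfsg.Agent.Frob.Kernel
import Cfsg.Agent.PGroup.ChermakDelgado
import Mathlib.GroupTheory.Solvable
import Mathlib.GroupTheory.SpecificGroups.Cyclic
import Mathlib.Data.Rat.Lemmas
import Mathlib.Tactic.FieldSimp
import Mathlib.Tactic.Ring
import Mathlib.Tactic.Linarith

/-!
Finite groups in which every centraliser of a non-central element is maximal are solvable.
-/

set_option autoImplicit false

open scoped Pointwise

namespace CfsgLib.MaximalCentralizers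

open CfsgLib.LocalLemmas

variable {G : Type*} [Group G] [Finite G]

/-- Shorthand for the centraliser of an element. -/
abbrev cen (g : G) : Subgroup G := Subgroup.centralizer ({g} : Set G)

omit [Finite G] in
theorem cen_conj (a g : G) : cen (a * g * a⁻¹) = (cen g).map (MulAut.conj a).toMonoidHom := by
  ext c
  rw [mem_conjMap, Subgroup.mem_centralizer_singleton_iff, Subgroup.mem_centralizer_singleton_iff]
  constructor <;> intro h
  · calc a⁻¹ * c * a * g = a⁻¹ * (c * (a * g * a⁻¹)) * a := by simp [mul_assoc]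
      _ = a⁻¹ * (a * g * a⁻¹ * c) * a := by rw [h]
      _ = g * (a⁻¹ * c * a) := by simp [mul_assoc]
  · calc c * (a * g * a⁻¹) = a * (a⁻¹ * c * a * g) * a⁻¹ := by simp [mul_assoc]
      _ = a * (g * (a⁻¹ * c * a)) * a⁻¹ := by rw [h]
      _ = a * g * a⁻¹ * c := by simp [mul_assoc]

omit [Finite G] in
theorem conj_mem_center_iff (a g : G) : a * g * a⁻¹ ∈ Subgroup.center G ↔ g ∈ Subgroup.center G := by
  constructor
  · intro h
    have := (inferInstance : (Subgroup.center G).Normal).conj_mem _ h a⁻¹
    simpa [mul_assoc] using this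
  · exact fun h => (inferInstance : (Subgroup.center G).Normal).conj_mem _ h a

omit [Finite G] in
theorem self_mem_cen (g : G) : g ∈ cen g := Subgroup.mem_centralizer_singleton_iff.mpr rfl

omit [Finite G] in
theorem cen_le_of_mem_zpowers {g k : G} (hk : k ∈ Subgroup.zpowers g) : cen g ≤ cen k := by
  intro c hc
  obtain ⟨i, rfl⟩ := Subgroup.mem_zpowers_iff.mp hk
  exact Subgroup.mem_centralizer_singleton_iff.mpr
    (Commute.zpow_right (Subgroup.mem_centralizer_singleton_iff.mp hc) i).eq

variable (h : ∀ g : G, g ∉ Subgroup.center G → IsCoatom (cen g))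
include h

omit [Finite G] in
theorem cen_eq_of_le {g k : G} (hg : g ∉ Subgroup.center G) (hk : k ∉ Subgroup.center G) (hle : cen g ≤ cen k) :
    cen g = cen k :=
  (((h g hg).le_iff.mp hle).resolve_left (h k hk).1).symm

/-- The shape of a non-abelian centraliser. -/
theorem exists_prime_shape {g : G} (hg : g ∉ Subgroup.center G) (hna : ¬ IsMulCommutative (cen g)) :
    ∃ p : ℕ, p.Prime ∧ ∃ x : G, x ∉ Subgroup.center G ∧ (∃ k, orderOf x = p ^ k) ∧ cen x = cen g ∧
      ∀ y ∈ cen g, (orderOf y).Coprime p → y ∈ Subgroup.center G := by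
  -- a non-central primary part of `g`
  obtain ⟨p, hp, x, hx, hxo, hxg⟩ : ∃ p : ℕ, p.Prime ∧ ∃ x, x ∉ Subgroup.center G ∧ (∃ k, orderOf x = p ^ k) ∧
      x ∈ Subgroup.zpowers g := by
    by_contra hcon
    push Not at hcon
    apply hg
    suffices ∀ (n : ℕ) (w : G), w ∈ Subgroup.zpowers g → orderOf w = n → w ∈ Subgroup.center G from
      this _ g (Subgroup.mem_zpowers g) rfl
    intro n
    induction n using Nat.strong_induction_on with
    | _ n ih =>
      intro w hw hn
      by_cases h1 : n = 1
      · rw [orderOf_eq_one_iff.mp (hn.trans h1)]; exact one_mem _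
      obtain ⟨q, hq, hqd⟩ := Nat.exists_prime_and_dvd h1
      haveI := Fact.mk hq
      obtain ⟨a, b, rfl, hab, ⟨k, hk⟩, hb, haw, hbw⟩ := CfsgLib.Transfer.exists_pPart_mul (p := q) w
      have hbd : orderOf b ∣ n := hn ▸ orderOf_dvd_of_mem_zpowers hbw
      have hbn : orderOf b ≠ n := fun e => hq.one_lt.ne' (Nat.eq_one_of_dvd_coprimes hb (e.symm ▸ hqd) dvd_rfl)
      have hble : orderOf b < n := lt_of_le_of_ne (Nat.le_of_dvd (hn ▸ orderOf_pos _) hbd) hbn
      have hsub : Subgroup.zpowers (a * b) ≤ Subgroup.zpowers g := Subgroup.zpowers_le.mpr hw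
      refine mul_mem ?_ (ih _ hble b (hsub hbw) rfl)
      by_contra ha
      exact hcon q hq a ha ⟨k, hk⟩ (hsub haw)
  haveI := Fact.mk hp
  have hCx : cen x = cen g := (cen_eq_of_le h hg hx (cen_le_of_mem_zpowers hxg)).symm
  obtain ⟨k, hk⟩ := hxo
  have key : ∀ y ∈ cen g, (orderOf y).Coprime p → y ∈ Subgroup.center G ∨ cen y = cen g := by
    intro y hy hyo
    by_cases hyc : y ∈ Subgroup.center G
    · exact Or.inl hyc
    right
    have hxy : Commute x y := (Subgroup.mem_centralizer_singleton_iff.mp (hCx.ge hy)).symm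
    have hco : (orderOf x).Coprime (orderOf y) := hk ▸ Nat.Coprime.pow_left k hyo.symm
    obtain ⟨i, hi⟩ := exists_pow_eq_self_of_coprime (G := G) (x := x) (n := orderOf y) hco.symm
    have h1 : x ∈ Subgroup.zpowers (x * y) := by
      have h0 := Subgroup.pow_mem _ (Subgroup.mem_zpowers (x * y)) (orderOf y)
      rw [hxy.mul_pow, pow_orderOf_eq_one, mul_one] at h0
      have h0' := Subgroup.pow_mem _ h0 i
      rwa [hi] at h0'
    have h2 : y ∈ Subgroup.zpowers (x * y) := by
      have := mul_mem (inv_mem h1) (Subgroup.mem_zpowers (x * y))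
      rwa [inv_mul_cancel_left] at this
    have hnc : x * y ∉ Subgroup.center G := fun hc => hx ((Subgroup.zpowers_le.mpr hc) h1)
    rw [← cen_eq_of_le h hnc hyc (cen_le_of_mem_zpowers h2), cen_eq_of_le h hnc hx (cen_le_of_mem_zpowers h1), hCx]
  refine ⟨p, hp, x, hx, ⟨k, hk⟩, hCx, fun y hy hyo => ?_⟩
  by_contra hyc
  apply hna
  -- every primary component is central in the centraliser
  rw [← Subgroup.le_centralizer_iff_isMulCommutative]
  have hyC : cen y = cen g := (key y hy hyo).resolve_left hyc
  have hpel : ∀ a ∈ cen g, (∃ j, orderOf a = p ^ j) → a ∈ Subgroup.centralizer (cen g : Set G) := by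
    intro a ha ⟨j, hj⟩
    by_cases hac : a ∈ Subgroup.center G
    · exact Subgroup.center_le_centralizer _ hac
    have hay : Commute a y := Subgroup.mem_centralizer_singleton_iff.mp (hyC.ge ha)
    have hco : (orderOf a).Coprime (orderOf y) := hj ▸ Nat.Coprime.pow_left j hyo.symm
    obtain ⟨i, hi⟩ := exists_pow_eq_self_of_coprime (G := G) (x := a) (n := orderOf y) hco.symm
    have h1 : a ∈ Subgroup.zpowers (a * y) := by
      have h0 := Subgroup.pow_mem _ (Subgroup.mem_zpowers (a * y)) (orderOf y)
      rw [hay.mul_pow, pow_orderOf_eq_one, mul_one] at h0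
      have h0' := Subgroup.pow_mem _ h0 i
      rwa [hi] at h0'
    have h2 : y ∈ Subgroup.zpowers (a * y) := by
      have := mul_mem (inv_mem h1) (Subgroup.mem_zpowers (a * y))
      rwa [inv_mul_cancel_left] at this
    have hnc : a * y ∉ Subgroup.center G := fun hc => hac ((Subgroup.zpowers_le.mpr hc) h1)
    have : cen a = cen g := by
      rw [← cen_eq_of_le h hnc hac (cen_le_of_mem_zpowers h1), cen_eq_of_le h hnc hyc (cen_le_of_mem_zpowers h2), hyC]
    rw [Subgroup.mem_centralizer_iff]
    exact fun c hc => Subgroup.mem_centralizer_singleton_iff.mp (this.ge hc)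
  intro c hc
  obtain ⟨a, b, rfl, -, hao, hbo, haz, hbz⟩ := CfsgLib.Transfer.exists_pPart_mul (p := p) c
  have hle : Subgroup.zpowers (a * b) ≤ cen g := Subgroup.zpowers_le.mpr hc
  refine mul_mem (hpel a (hle haz) hao) ?_
  rcases key b (hle hbz) hbo with hb | hb
  · exact Subgroup.center_le_centralizer _ hb
  · rw [Subgroup.mem_centralizer_iff]
    exact fun d hd => Subgroup.mem_centralizer_singleton_iff.mp (hb.ge hd)

/-- Centralisers are solvable. -/
theorem cen_solvable {g : G} (hg : g ∉ Subgroup.center G) : Group.IsSolvable (cen g) := by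
  by_cases hab : IsMulCommutative (cen g)
  · exact Group.isSolvable_of_comm fun a b => hab.is_comm.comm a b
  obtain ⟨p, hp, -, -, -, -, hp'⟩ := exists_prime_shape h hg hab
  haveI := Fact.mk hp
  set Z := (Subgroup.center G).subgroupOf (cen g) with hZ
  haveI : Z.Normal := Subgroup.Normal.subgroupOf inferInstance _
  have hq : IsPGroup p (cen g ⧸ Z) := by
    intro q
    induction q using QuotientGroup.induction_on with
    | H c =>
      obtain ⟨a, b, hab, hcm, ⟨j, hj⟩, hbo, -, hbz⟩ := CfsgLib.Transfer.exists_pPart_mul (p := p) (c : G)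
      refine ⟨j, ?_⟩
      rw [← QuotientGroup.mk_pow, QuotientGroup.eq_one_iff, hZ, Subgroup.mem_subgroupOf]
      have : ((c ^ p ^ j : cen g) : G) = b ^ p ^ j := by
        rw [SubmonoidClass.coe_pow, hab, hcm.mul_pow, ← hj, pow_orderOf_eq_one, one_mul]
      rw [this]
      exact Subgroup.pow_mem _ (hp' b ((Subgroup.zpowers_le.mpr c.2) hbz) hbo) _
  haveI := hq.isNilpotent
  haveI : Group.IsSolvable (cen g ⧸ Z) := inferInstance
  haveI : Group.IsSolvable Z := Group.isSolvable_of_comm fun a b => Subtype.ext (Subtype.ext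
    (Subgroup.mem_center_iff.mp (Subgroup.mem_subgroupOf.mp b.2) (a : cen g)))
  exact Group.isSolvable_of_ker_le_range Z.subtype (QuotientGroup.mk' Z)
    (by rw [QuotientGroup.ker_mk', Subgroup.range_subtype])

omit [Finite G] in
/-- Distinct abelian centralisers meet in the centre. -/
theorem inf_le_center_of_abelian {g k : G} (hg : g ∉ Subgroup.center G)
    (ha : IsMulCommutative (cen g)) (hk : k ∈ cen g) (hkc : k ∉ Subgroup.center G) : cen k = cen g := by
  refine (cen_eq_of_le h hg hkc fun c hc => Subgroup.mem_centralizer_singleton_iff.mpr ?_).symm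
  exact congrArg Subtype.val (ha.is_comm.comm (⟨c, hc⟩ : cen g) ⟨k, hk⟩)

/-- A self-normalising abelian centraliser leads to a normal centraliser. -/
theorem no_abelian (hnn : ∀ g : G, g ∉ Subgroup.center G → ¬ (cen g).Normal) {a : G}
    (ha : a ∉ Subgroup.center G) : ¬ IsMulCommutative (cen a) := by
  intro hab
  set A := cen a with hA
  set π := QuotientGroup.mk' (Subgroup.center G)
  have hπ : ∀ w, π w = 1 ↔ w ∈ Subgroup.center G := fun w => QuotientGroup.eq_one_iff w
  have hZA : Subgroup.center G ≤ A := Subgroup.center_le_centralizer _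
  have hnA : Subgroup.normalizer (A : Set G) = A :=
    ((h a ha).le_iff.mp Subgroup.le_normalizer).resolve_left fun e => hnn a ha (Subgroup.normalizer_eq_top_iff.mp e)
  have hcomap : (A.map π).comap π = A := by
    rw [Subgroup.comap_map_eq, QuotientGroup.ker_mk', sup_eq_left.mpr hZA]
  have hFC : Cfsg.IsFrobeniusComplement (A.map π) := by
    refine ⟨fun e => ha ?_, fun e => (h a ha).1 ?_, fun q hq => ?_⟩
    · rw [Subgroup.map_eq_bot_iff, QuotientGroup.ker_mk'] at e
      exact e (self_mem_cen a)
    · have := congrArg (Subgroup.comap π) e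
      rwa [hcomap, Subgroup.comap_top] at this
    · obtain ⟨g, rfl⟩ := QuotientGroup.mk'_surjective (Subgroup.center G) q
      rw [Subgroup.eq_bot_iff_forall]
      rintro _ ⟨⟨w, hw, rfl⟩, hw2⟩
      rw [hπ]
      by_contra hwc
      obtain ⟨_, ⟨v, hv, rfl⟩, hv2⟩ := hw2
      have hv' : g * v * g⁻¹ ∈ A := by
        have : π (g * v * g⁻¹) = π w := by rw [map_mul, map_mul, map_inv]; exact hv2
        rw [← hcomap]
        exact ⟨w, hw, this.symm⟩
      have hvc : v ∉ Subgroup.center G := fun hc => hwc ((hπ w).mp (by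
        rw [← hv2]
        show π g * π v * (π g)⁻¹ = 1
        rw [(hπ v).mpr hc, mul_one, mul_inv_cancel]))
      have e1 := inf_le_center_of_abelian h ha hab hv' ((conj_mem_center_iff g v).not.mpr hvc)
      rw [cen_conj, inf_le_center_of_abelian h ha hab hv hvc] at e1
      apply hq
      exact Subgroup.mem_map_of_mem π (hnA ▸ mem_normalizer_of_conjMap_eq e1)
  set K := (CfsgLib.Frob.kernel hFC).comap π with hK
  haveI := CfsgLib.Frob.kernel_normal hFC
  have hKtop : K ≠ ⊤ := fun e => CfsgLib.Frob.kernel_ne_top hFC (Subgroup.comap_injective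
    (QuotientGroup.mk'_surjective _) (e.trans (Subgroup.comap_top _).symm))
  -- a non-central element outside `K` has centraliser conjugate to `A`
  have hout : ∀ w : G, w ∉ K → ∃ g, cen w = A.map (MulAut.conj g).toMonoidHom := by
    intro w hw
    obtain ⟨h1, q, hq⟩ := CfsgLib.Frob.not_mem_kernel_iff.mp (fun e => hw ((CfsgLib.Frob.mem_kernel hFC).mpr e))
    obtain ⟨g, rfl⟩ := QuotientGroup.mk'_surjective (Subgroup.center G) q
    have hv : g⁻¹ * w * g ∈ A := by
      rw [← hcomap, Subgroup.mem_comap, map_mul, map_mul, map_inv]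
      exact hq
    have hvc : g⁻¹ * w * g ∉ Subgroup.center G := by
      intro hc
      apply h1
      rw [hπ]
      have := (conj_mem_center_iff g _).mpr hc
      simpa [mul_assoc] using this
    refine ⟨g, ?_⟩
    rw [show A = cen (g⁻¹ * w * g) from (inf_le_center_of_abelian h ha hab hv hvc).symm, ← cen_conj]
    congr 2
    simp [mul_assoc]
  have hall : ∀ w : G, w ∉ Subgroup.center G → ∃ g, cen w = A.map (MulAut.conj g).toMonoidHom := by
    intro w hw
    by_contra hcon
    push Not at hcon
    have hle : cen w ≤ K := by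
      intro u hu
      by_contra huK
      obtain ⟨g, hg⟩ := hout u huK
      apply hcon g
      have hab' : IsMulCommutative (cen u) := by
        rw [hg]; haveI := hab; infer_instance
      have hwu : w ∈ cen u := Subgroup.mem_centralizer_singleton_iff.mpr (Subgroup.mem_centralizer_singleton_iff.mp hu).symm
      have huc : u ∉ Subgroup.center G := fun hc => huK (by
        rw [hK, Subgroup.mem_comap, (hπ u).mpr hc]; exact one_mem _)
      rw [inf_le_center_of_abelian h huc hab' hwu hw, hg]
    exact hnn w hw (((h w hw).le_iff.mp hle).resolve_left hKtop ▸ inferInstance)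
  apply CfsgLib.Frob.kernel_ne_bot hFC
  rw [Subgroup.eq_bot_iff_forall]
  intro q hq
  obtain ⟨w, rfl⟩ := QuotientGroup.mk'_surjective (Subgroup.center G) q
  by_contra hne
  obtain ⟨g, hg⟩ := hall w fun hc => hne ((hπ w).mpr hc)
  have hwg : g⁻¹ * w * g ∈ A := mem_conjMap.mp (hg.le (self_mem_cen w))
  rcases (CfsgLib.Frob.mem_kernel hFC).mp hq with h1 | h1
  · exact hne h1
  · apply h1 (π g)
    refine ⟨π (g⁻¹ * w * g), Subgroup.mem_map_of_mem _ hwg, ?_⟩
    show π g * π (g⁻¹ * w * g) * (π g)⁻¹ = π w
    rw [← map_inv, ← map_mul, ← map_mul]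
    simp [mul_assoc]

omit h in
theorem sum_inv_sq_lt_half (s : Finset ℕ) (hs : ∀ p ∈ s, p.Prime) : ∑ p ∈ s, (1 : ℚ) / (p : ℚ) ^ 2 < 1 / 2 := by
  classical
  have hodd : ∀ t : Finset ℕ, (∀ p ∈ t, p.Prime ∧ p ≠ 2) → ∑ p ∈ t, (1 : ℚ) / (p : ℚ) ^ 2 < 1 / 4 := by
    intro t ht
    set N := t.sup id
    set f : ℕ → ℚ := fun k => 1 / (4 * ((k : ℚ) + 1) * ((k : ℚ) + 2))
    have htel : ∀ M : ℕ, ∑ k ∈ Finset.range M, f k = 1 / 4 - 1 / (4 * ((M : ℚ) + 1)) := by
      intro M
      induction M with
      | zero => simp
      | succ m ih => rw [Finset.sum_range_succ, ih]; simp only [f]; push_cast; field_simp; ring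
    calc ∑ p ∈ t, (1 : ℚ) / (p : ℚ) ^ 2 ≤ ∑ p ∈ t, f ((p - 3) / 2) := by
          refine Finset.sum_le_sum fun p hp => ?_
          obtain ⟨hpp, hp2⟩ := ht p hp
          obtain ⟨r, hr⟩ := hpp.odd_of_ne_two hp2
          have h3 : 1 ≤ r := by have := hpp.two_le; omega
          rw [show (p - 3) / 2 = r - 1 by omega]
          simp only [f]
          rw [Nat.cast_sub h3, hr]
          push_cast
          apply one_div_le_one_div_of_le
          · have : (1 : ℚ) ≤ r := by exact_mod_cast h3
            nlinarith
          · nlinarith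
      _ = ∑ k ∈ t.image (fun p => (p - 3) / 2), f k := by
          rw [Finset.sum_image]
          intro p hp q hq e
          obtain ⟨r, hr⟩ := (ht p hp).1.odd_of_ne_two (ht p hp).2
          obtain ⟨r', hr'⟩ := (ht q hq).1.odd_of_ne_two (ht q hq).2
          have := (ht p hp).1.two_le
          have := (ht q hq).1.two_le
          simp only at e
          omega
      _ ≤ ∑ k ∈ Finset.range (N + 1), f k := by
          refine Finset.sum_le_sum_of_subset_of_nonneg (fun k hk => ?_) fun k _ _ => ?_
          · obtain ⟨p, hp, rfl⟩ := Finset.mem_image.mp hk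
            have : p ≤ N := Finset.le_sup (f := id) hp
            rw [Finset.mem_range]; omega
          · simp only [f]; positivity
      _ < 1 / 4 := by
          rw [htel]
          have : (0 : ℚ) < 1 / (4 * (((N + 1 : ℕ) : ℚ) + 1)) := by positivity
          linarith
  by_cases h2 : 2 ∈ s
  · rw [← Finset.add_sum_erase _ _ h2]
    have := hodd (s.erase 2) fun p hp => ⟨hs p (Finset.mem_of_mem_erase hp), Finset.ne_of_mem_erase hp⟩
    norm_num at this ⊢
    linarith
  · have := hodd s fun p hp => ⟨hs p hp, fun e => h2 (e ▸ hp)⟩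
    linarith

/-- Without normal centralisers the non-abelian centralisers cover too few elements. -/
theorem not_all_nonnormal (hG : Subgroup.center G ≠ ⊤) :
    ∃ g : G, g ∉ Subgroup.center G ∧ (cen g).Normal := by
  classical
  by_contra hcon
  push Not at hcon
  have hna := fun {g : G} (hg : g ∉ Subgroup.center G) => no_abelian h hcon hg
  have shape := fun {g : G} (hg : g ∉ Subgroup.center G) => exists_prime_shape h hg (hna hg)
  let : Fintype G := Fintype.ofFinite G
  set T : ℕ → Finset G := fun p => Finset.univ.filter fun g => ∃ hg : g ∉ Subgroup.center G,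
    ∀ y ∈ cen g, (orderOf y).Coprime p → y ∈ Subgroup.center G with hT
  set s := (Finset.range (Nat.card G + 1)).filter fun p => p.Prime ∧ (T p).Nonempty with hs
  have hcover : (Finset.univ.filter fun g : G => g ∉ Subgroup.center G) ⊆ s.biUnion T := by
    intro g hg
    rw [Finset.mem_filter] at hg
    obtain ⟨p, hp, x, hx, ⟨k, hk⟩, -, hy⟩ := shape hg.2
    have hmem : g ∈ T p := Finset.mem_filter.mpr ⟨Finset.mem_univ _, hg.2, hy⟩
    refine Finset.mem_biUnion.mpr ⟨p, Finset.mem_filter.mpr ⟨Finset.mem_range.mpr ?_, hp, g, hmem⟩, hmem⟩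
    have hk0 : k ≠ 0 := fun e => hx (by rw [orderOf_eq_one_iff.mp (hk.trans (by rw [e, pow_zero]))]; exact one_mem _)
    have h1 : p ∣ Nat.card G := (dvd_pow_self p hk0).trans (hk ▸ orderOf_dvd_natCard x)
    have := Nat.le_of_dvd Nat.card_pos h1
    omega
  have hbound : ∀ p ∈ s, (T p).card * p ^ 2 ≤ Nat.card G := by
    intro p hp
    obtain ⟨-, hpp, g, hg⟩ := Finset.mem_filter.mp hp
    haveI := Fact.mk hpp
    obtain ⟨-, hgc, hgy⟩ := Finset.mem_filter.mp hg
    set C := cen g with hC
    set Z := Subgroup.center G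
    have hZC : Z ≤ C := Subgroup.center_le_centralizer _
    have hnC : Subgroup.normalizer (C : Set G) = C :=
      ((h g hgc).le_iff.mp Subgroup.le_normalizer).resolve_left fun e => hcon g hgc (Subgroup.normalizer_eq_top_iff.mp e)
    -- every centraliser of this kind is the join of a Sylow subgroup with the centre
    have hjoin : ∀ u : G, u ∉ Z → (∀ y ∈ cen u, (orderOf y).Coprime p → y ∈ Z) →
        ∃ P : Sylow p G, cen u = (P : Subgroup G) ⊔ Z := by
      intro u hu huy
      obtain ⟨P0⟩ := Sylow.nonempty (p := p) (G := cen u)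
      set R := (P0 : Subgroup (cen u)).map (cen u).subtype with hR
      have hRC : R ≤ cen u := Subgroup.map_subtype_le _
      have hRp : IsPGroup p R := P0.isPGroup'.map _
      have heq : cen u = R ⊔ Z := by
        refine le_antisymm (fun c hc => ?_) (sup_le hRC (Subgroup.center_le_centralizer _))
        obtain ⟨a, b, rfl, -, ⟨j, hj⟩, hbo, haz, hbz⟩ := CfsgLib.Transfer.exists_pPart_mul (p := p) c
        have hle : Subgroup.zpowers (a * b) ≤ cen u := Subgroup.zpowers_le.mpr hc
        refine mul_mem ?_ (Subgroup.mem_sup_right (huy b (hle hbz) hbo))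
        -- `a` is conjugate into `R` by an element of the p-part
        have haC : a ∈ cen u := hle haz
        obtain ⟨Q, hQ⟩ := (IsPGroup.of_card (n := j) (by rw [Nat.card_zpowers, Subgroup.orderOf_mk, hj]) :
          IsPGroup p (Subgroup.zpowers (⟨a, haC⟩ : cen u))).exists_le_sylow
        -- the Sylow subgroup is normal, as `cen u` is nilpotent
        have hnil : Group.IsNilpotent (cen u) := by
          set Z' := Z.subgroupOf (cen u)
          haveI : Z'.Normal := Subgroup.Normal.subgroupOf inferInstance _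
          have hq : IsPGroup p (cen u ⧸ Z') := by
            intro q
            induction q using QuotientGroup.induction_on with
            | H c =>
              obtain ⟨a', b', hab, hcm, ⟨i, hi⟩, hbo', -, hbz'⟩ := CfsgLib.Transfer.exists_pPart_mul (p := p) (c : G)
              refine ⟨i, ?_⟩
              rw [← QuotientGroup.mk_pow, QuotientGroup.eq_one_iff, Subgroup.mem_subgroupOf]
              have : ((c ^ p ^ i : cen u) : G) = b' ^ p ^ i := by
                rw [SubmonoidClass.coe_pow, hab, hcm.mul_pow, ← hi, pow_orderOf_eq_one, one_mul]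
              rw [this]
              exact Subgroup.pow_mem _ (huy b' ((Subgroup.zpowers_le.mpr c.2) hbz') hbo') _
          haveI := hq.isNilpotent
          refine Subgroup.isNilpotent_of_ker_le_center (QuotientGroup.mk' Z') ?_
          rw [QuotientGroup.ker_mk']
          exact fun z hz => Subgroup.mem_center_iff.mpr fun w =>
            Subtype.ext (Subgroup.mem_center_iff.mp (Subgroup.mem_subgroupOf.mp hz) w)
        haveI := hnil
        have hn : (P0 : Subgroup (cen u)).Normal :=
          Sylow.normal_of_normalizerCondition Group.normalizerCondition_of_isNilpotent P0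
        haveI := Sylow.unique_of_normal P0 hn
        refine Subgroup.mem_sup_left ⟨⟨a, haC⟩, ?_, rfl⟩
        rw [← Subsingleton.elim Q P0]
        exact hQ (Subgroup.mem_zpowers _)
      obtain ⟨P, hP⟩ := hRp.exists_le_sylow
      refine ⟨P, heq.trans ?_⟩
      suffices R = (P : Subgroup G) by rw [this]
      by_contra hne
      obtain ⟨y, hyP, hyR, hyN⟩ := exists_mem_normalizer_not_mem P.isPGroup' (lt_of_le_of_ne hP hne)
      have hnu : Subgroup.normalizer (cen u : Set G) = cen u :=
        ((h u hu).le_iff.mp Subgroup.le_normalizer).resolve_left fun e => hcon u hu (Subgroup.normalizer_eq_top_iff.mp e)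
      have hyC : y ∈ cen u := by
        rw [← hnu]
        refine mem_normalizer_of_conjMap_le ?_
        rw [heq, Subgroup.map_sup, conjMap_eq_of_mem_normalizer hyN]
        refine sup_le_sup_left ?_ _
        rintro _ ⟨z, hz, rfl⟩
        exact (inferInstance : (Subgroup.center G).Normal).conj_mem z hz y
      have h1 : (P0 : Subgroup (cen u)) ≤ (P : Subgroup G).subgroupOf (cen u) :=
        fun w hw => Subgroup.mem_subgroupOf.mpr (hP (Subgroup.mem_map_of_mem _ hw))
      have h2 := P0.3 (P.isPGroup'.comap_subtype (K := cen u)) h1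
      exact hyR ⟨⟨y, hyC⟩, h2.le (Subgroup.mem_subgroupOf.mpr hyP), rfl⟩
    obtain ⟨P, hP⟩ := hjoin g hgc hgy
    set W := C ⊓ Subgroup.centralizer (C : Set G) with hW
    -- each element of `T p` is a conjugate of an element of `W`
    have hsurj : T p ⊆ Finset.image (fun qw : (G ⧸ C) × W => qw.1.out * (qw.2 : G) * qw.1.out⁻¹) Finset.univ := by
      intro u hu
      obtain ⟨-, huc, huy⟩ := Finset.mem_filter.mp hu
      obtain ⟨Q, hQ⟩ := hjoin u huc huy
      obtain ⟨d, hd⟩ := MulAction.exists_smul_eq G P Q
      have hconj : cen u = C.map (MulAut.conj d).toMonoidHom := by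
        rw [hQ, ← hd, hC, hP, Subgroup.map_sup]
        congr 1
        exact (conjMap_eq_of_mem_normalizer (H := Z)
          ((Subgroup.normalizer_eq_top_iff.mpr (inferInstance : (Subgroup.center G).Normal)).ge (Subgroup.mem_top d))).symm
      obtain ⟨c, hcd⟩ := QuotientGroup.mk_out_eq_mul C d
      set r := (QuotientGroup.mk d : G ⧸ C).out with hr
      have hconj' : cen u = C.map (MulAut.conj r).toMonoidHom := by
        rw [hconj, hcd, ← conjMap_conjMap, conjMap_eq_of_mem_normalizer (Subgroup.le_normalizer c.2)]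
      have hcu : cen (r⁻¹ * u * r) = C := by
        have := cen_conj r⁻¹ u
        rw [inv_inv] at this
        rw [this, hconj', conjMap_conjMap, inv_mul_cancel, conjMap_one]
      refine Finset.mem_image.mpr ⟨(QuotientGroup.mk d, ⟨r⁻¹ * u * r, ?_⟩), Finset.mem_univ _, ?_⟩
      · refine ⟨hcu ▸ self_mem_cen _, Subgroup.mem_centralizer_iff.mpr fun c' hc' => ?_⟩
        exact Subgroup.mem_centralizer_singleton_iff.mp (hcu.ge hc')
      · show r * (r⁻¹ * u * r) * r⁻¹ = u
        simp [mul_assoc]
    have h1 : (T p).card ≤ C.index * Nat.card W := by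
      refine (Finset.card_le_card hsurj).trans (Finset.card_image_le.trans ?_)
      rw [Finset.card_univ, Fintype.card_prod, ← Nat.card_eq_fintype_card, ← Nat.card_eq_fintype_card]
      exact le_rfl
    have h2 : Nat.card W * p ^ 2 ≤ Nat.card C := by
      have hWc : W.subgroupOf C = Subgroup.center C := by
        ext c
        rw [Subgroup.mem_subgroupOf, hW, Subgroup.mem_inf, Subgroup.mem_centralizer_iff, Subgroup.mem_center_iff]
        exact ⟨fun hh d => Subtype.ext (hh.2 d d.2), fun hh => ⟨c.2, fun d hd => congrArg Subtype.val (hh ⟨d, hd⟩)⟩⟩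
      have hcardW : Nat.card W = Nat.card (Subgroup.center C) := by
        rw [← hWc, Nat.card_congr (Subgroup.subgroupOfEquivOfLe (inf_le_left : W ≤ C)).toEquiv]
      have hq : IsPGroup p (C ⧸ Subgroup.center C) := by
        intro q
        induction q using QuotientGroup.induction_on with
        | H c =>
          obtain ⟨a', b', hab, hcm, ⟨i, hi⟩, hbo', -, hbz'⟩ := CfsgLib.Transfer.exists_pPart_mul (p := p) (c : G)
          refine ⟨i, ?_⟩
          rw [← QuotientGroup.mk_pow, QuotientGroup.eq_one_iff]
          refine Subgroup.mem_center_iff.mpr fun d => Subtype.ext ?_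
          show (d : G) * ((c ^ p ^ i : C) : G) = ((c ^ p ^ i : C) : G) * d
          have : ((c ^ p ^ i : C) : G) = b' ^ p ^ i := by
            rw [SubmonoidClass.coe_pow, hab, hcm.mul_pow, ← hi, pow_orderOf_eq_one, one_mul]
          rw [this]
          exact Subgroup.mem_center_iff.mp (Subgroup.pow_mem _ (hgy b' ((Subgroup.zpowers_le.mpr c.2) hbz') hbo') _) d
      obtain ⟨j, hj⟩ := IsPGroup.iff_card.mp hq
      have hj2 : 2 ≤ j := by
        by_contra hlt
        apply hna hgc
        have : IsCyclic (C ⧸ Subgroup.center C) := by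
          interval_cases j
          · haveI : Subsingleton (C ⧸ Subgroup.center C) := (Nat.card_eq_one_iff_unique.mp (hj.trans (pow_zero p))).1
            infer_instance
          · exact isCyclic_of_prime_card (p := p) (hj.trans (pow_one p))
        exact (QuotientGroup.mk' (Subgroup.center C)).isMulCommutative_of_isCyclic_of_ker_le_center
          (by rw [QuotientGroup.ker_mk'])
      calc Nat.card W * p ^ 2 ≤ Nat.card W * p ^ j := Nat.mul_le_mul_left _ (Nat.pow_le_pow_right hpp.pos hj2)
        _ = Nat.card C := by rw [hcardW, ← hj, ← Subgroup.index_eq_card, Subgroup.card_mul_index]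
    calc (T p).card * p ^ 2 ≤ C.index * Nat.card W * p ^ 2 := Nat.mul_le_mul_right _ h1
      _ ≤ C.index * Nat.card C := by rw [mul_assoc]; exact Nat.mul_le_mul_left _ h2
      _ = Nat.card G := C.index_mul_card
  have hhalf : Nat.card G ≤ 2 * (Finset.univ.filter fun g : G => g ∉ Subgroup.center G).card := by
    have h1 := Finset.card_filter_add_card_filter_not (s := (Finset.univ : Finset G)) (p := fun g => g ∈ Subgroup.center G)
    have h2 : (Finset.univ.filter fun g : G => g ∈ Subgroup.center G).card = Nat.card (Subgroup.center G) := by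
      rw [Nat.card_eq_fintype_card, Fintype.card_subtype]
    have h3 : 2 ≤ (Subgroup.center G).index := Subgroup.one_lt_index_of_ne_top hG
    have h4 := Subgroup.card_mul_index (Subgroup.center G)
    have h5 : 2 * Nat.card (Subgroup.center G) ≤ Nat.card G := by
      rw [← h4, mul_comm 2]
      exact Nat.mul_le_mul_left _ h3
    rw [Finset.card_univ, ← Nat.card_eq_fintype_card, h2] at h1
    omega
  have h6 : ((Finset.univ.filter fun g : G => g ∉ Subgroup.center G).card : ℚ) ≤
      Nat.card G * ∑ p ∈ s, (1 : ℚ) / (p : ℚ) ^ 2 := by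
    calc ((Finset.univ.filter fun g : G => g ∉ Subgroup.center G).card : ℚ) ≤ ∑ p ∈ s, ((T p).card : ℚ) := by
          exact_mod_cast (Finset.card_le_card hcover).trans Finset.card_biUnion_le
      _ ≤ ∑ p ∈ s, (Nat.card G : ℚ) * ((1 : ℚ) / (p : ℚ) ^ 2) := by
          refine Finset.sum_le_sum fun p hp => ?_
          have hpp := (Finset.mem_filter.mp hp).2.1
          rw [mul_one_div, le_div_iff₀ (by have := hpp.pos; positivity)]
          exact_mod_cast hbound p hp
      _ = _ := (Finset.mul_sum ..).symm
  have h7 := sum_inv_sq_lt_half s fun p hp => (Finset.mem_filter.mp hp).2.1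
  have h8 : (0 : ℚ) < Nat.card G := by exact_mod_cast Nat.card_pos
  have h9 : (Nat.card G : ℚ) ≤ 2 * ((Finset.univ.filter fun g : G => g ∉ Subgroup.center G).card : ℚ) := by
    exact_mod_cast hhalf
  nlinarith

/-- The solvability theorem. -/
theorem isSolvable : Group.IsSolvable G := by
  by_cases hG : Subgroup.center G = ⊤
  · exact Group.isSolvable_of_comm fun a b => Subgroup.mem_center_iff.mp (hG ▸ Subgroup.mem_top b) a
  obtain ⟨g, hg, hn⟩ := not_all_nonnormal h hG
  haveI := hn
  haveI := cen_solvable h hg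
  haveI : Group.IsSolvable (G ⧸ cen g) := by
    have hbt : ∀ H : Subgroup (G ⧸ cen g), H = ⊥ ∨ H = ⊤ := by
      intro H
      have hle : cen g ≤ H.comap (QuotientGroup.mk' (cen g)) := fun c hc => by
        rw [Subgroup.mem_comap, QuotientGroup.mk'_apply, (QuotientGroup.eq_one_iff c).mpr hc]; exact one_mem _
      rcases (h g hg).le_iff.mp hle with e | e
      · exact Or.inr (Subgroup.comap_injective (QuotientGroup.mk'_surjective _) (e.trans (Subgroup.comap_top _).symm))
      · exact Or.inl (Subgroup.comap_injective (QuotientGroup.mk'_surjective _)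
          (e.trans (by rw [MonoidHom.comap_bot, QuotientGroup.ker_mk'])))
    refine Group.isSolvable_of_comm fun a b => ?_
    rcases hbt (Subgroup.zpowers a) with e | e
    · rw [Subgroup.zpowers_eq_bot.mp e, one_mul, mul_one]
    · obtain ⟨i, rfl⟩ := Subgroup.mem_zpowers_iff.mp (e ▸ Subgroup.mem_top b)
      exact (Commute.self_zpow a i).eq
  exact Group.isSolvable_of_ker_le_range (cen g).subtype (QuotientGroup.mk' (cen g))
    (by rw [QuotientGroup.ker_mk', Subgroup.range_subtype])

end CfsgLib.MaximalCentralizers
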