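import Mathlib.GroupTheory.Transfer
import Mathlib.GroupTheory.SpecificGroups.Cyclic
import Mathlib.GroupTheory.Coset.Card

/-!
Transfer to a quotient `M / H` of prime order when `M` meets its conjugates inside `H`.
-/

set_option autoImplicit false

open scoped commutatorElement

namespace CfsgLib.MaximalTransfer

variable {G : Type*} [Group G] [Finite G]

/-- If `M ∩ M^g ≤ H` off `M` and `M / H` has prime order, some proper normal subgroup contains `H`. -/
theorem exists_normal_ge {M H : Subgroup G} (hHM : H ≤ M) [hn : (H.subgroupOf M).Normal]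
    (hprime : (H.relIndex M).Prime) (hTI : ∀ g : G, g ∉ M → ∀ y ∈ M, g⁻¹ * y * g ∈ M → g⁻¹ * y * g ∈ H) :
    ∃ N : Subgroup G, N.Normal ∧ H ≤ N ∧ N ≠ ⊤ ∧ ∀ a b : G, ⁅a, b⁆ ∈ N := by
  classical
  haveI : Fact (H.relIndex M).Prime := ⟨hprime⟩
  haveI : IsCyclic (M ⧸ H.subgroupOf M) := isCyclic_of_prime_card (p := H.relIndex M) rfl
  let : CommGroup (M ⧸ H.subgroupOf M) := IsCyclic.commGroup
  let φ : M →* M ⧸ H.subgroupOf M := QuotientGroup.mk' _
  let τ : G →* M ⧸ H.subgroupOf M := MonoidHom.transfer φ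
  have key : ∀ x : M, τ (x : G) = φ x := by
    intro x
    let : Fintype (Quotient (MulAction.orbitRel (Subgroup.zpowers (x : G)) (G ⧸ M))) := Fintype.ofFinite _
    refine (MonoidHom.transfer_eq_prod_quotient_orbitRel_zpowers_quot φ (x : G)).trans ?_
    set q₀ : Quotient (MulAction.orbitRel (Subgroup.zpowers (x : G)) (G ⧸ M)) :=
      Quotient.mk'' ((1 : G) : G ⧸ M) with hq₀
    have hfix : ∀ z : Subgroup.zpowers (x : G), z • ((1 : G) : G ⧸ M) = ((1 : G) : G ⧸ M) := by
      rintro ⟨z, hz⟩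
      show (((z * 1 : G)) : G ⧸ M) = ((1 : G) : G ⧸ M)
      rw [QuotientGroup.eq]
      simpa using M.inv_mem ((Subgroup.zpowers_le.mpr x.2) hz)
    have hout : q₀.out = ((1 : G) : G ⧸ M) := by
      have h : Quotient.mk'' q₀.out = q₀ := Quotient.out_eq' _
      obtain ⟨z, hz⟩ := Quotient.eq''.mp (h.trans hq₀)
      rw [← hz]; exact hfix z
    rw [Finset.prod_eq_single q₀]
    · have hmem : q₀.out.out ∈ M := by
        have : (q₀.out.out : G ⧸ M) = ((1 : G) : G ⧸ M) := (QuotientGroup.out_eq' _).trans hout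
        simpa using M.inv_mem (by simpa using QuotientGroup.eq.mp this)
      have hper : Function.minimalPeriod ((x : G) • ·) q₀.out = 1 := by
        refine Function.minimalPeriod_eq_one_iff_isFixedPt.mpr ?_
        rw [hout]
        exact hfix ⟨x, Subgroup.mem_zpowers _⟩
      set m : M := ⟨q₀.out.out, hmem⟩
      have : ∀ h, φ ⟨q₀.out.out⁻¹ * (x : G) ^ Function.minimalPeriod ((x : G) • ·) q₀.out * q₀.out.out, h⟩
          = φ (m⁻¹ * x * m) := fun h => congrArg φ (Subtype.ext (show q₀.out.out⁻¹ * (x : G) ^ Function.minimalPeriod ((x : G) • ·) q₀.out * q₀.out.out = _ by rw [hper, pow_one]; rfl))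
      rw [this, map_mul, map_mul, map_inv, mul_comm, mul_inv_cancel_left]
    · intro q _ hq
      show φ _ = 1
      refine (QuotientGroup.eq_one_iff _).mpr (Subgroup.mem_subgroupOf.mpr ?_)
      refine hTI _ (fun hm => hq ?_) _ (M.pow_mem x.2 _) (QuotientGroup.out_conj_pow_minimalPeriod_mem M (x : G) q.out)
      have h1 : q.out = ((1 : G) : G ⧸ M) := by
        rw [← QuotientGroup.out_eq' q.out, QuotientGroup.eq]
        simpa using M.inv_mem hm
      rw [← Quotient.out_eq' q, h1]
    · exact fun h => absurd (Finset.mem_univ _) h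
  refine ⟨τ.ker, inferInstance, fun h hh => ?_, fun htop => ?_, fun a b => ?_⟩
  · exact (key ⟨h, hHM hh⟩).trans ((QuotientGroup.eq_one_iff _).mpr hh)
  · obtain ⟨m, hm, hmH⟩ := SetLike.exists_of_lt (lt_of_le_of_ne hHM fun e => hprime.ne_one (by rw [e, Subgroup.relIndex_self]))
    have h1 : τ m = 1 := htop.ge (Subgroup.mem_top m)
    exact hmH (Subgroup.mem_subgroupOf.mp ((QuotientGroup.eq_one_iff (⟨m, hm⟩ : M)).mp ((key ⟨m, hm⟩).symm.trans h1)))
  · rw [MonoidHom.mem_ker, map_commutatorElement]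
    exact commutatorElement_eq_one_iff_mul_comm.mpr (mul_comm _ _)

end CfsgLib.MaximalTransfer
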